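import Cfsg.Agent.H381.Tools
import Cfsg.Agent.Lib.CoprimeAbelian
import Cfsg.Agent.S0660

/-!
# S3530, Lemma X, core (helper488)

`A` an elementary abelian `a`-group acting faithfully on the abelian `b`-group `V`, `P` normalising both, `x ∈ P` of order
`p * q` without fixed points on `V` and on `A`: `P` is not minimal with one of `(x ^ p) ^ g`, `(x ^ q) ^ g` for all `g`.
-/

set_option autoImplicit false
set_option linter.style.haveILetI false

namespace Cfsg.Agent.H389.RSq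

open Subgroup

universe u v

namespace H488LemX

open Cfsg.Agent.H381.Tools

variable {Γ : Type u} [Group Γ]

theorem eq_or_eq {A M K : Subgroup Γ} {a : ℕ} (ha : a.Prime) (hMA : M.relIndex A = a) (hMK : M ≤ K)
    (hKA : K ≤ A) : K = M ∨ K = A := by
  have h := relIndex_mul_relIndex M K A hMK hKA
  rw [hMA] at h
  rcases (Nat.dvd_prime ha).mp (Dvd.intro _ h) with h1 | h1
  · left; exact le_antisymm (relIndex_eq_one.mp h1) hMK
  · right
    rw [h1] at h
    have h2 : K.relIndex A = 1 := Nat.eq_of_mul_eq_mul_left ha.pos (by rw [h, mul_one])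
    exact le_antisymm hKA (relIndex_eq_one.mp h2)

theorem conj_mem {A : Subgroup Γ} {g : Γ} (hg : g ∈ normalizer (A : Set Γ)) {c : Γ} (hc : c ∈ A) :
    g * c * g⁻¹ ∈ A := (mem_normalizer_iff.mp hg c).mp hc

/-- the elements normalising `A` and centralising `A / M` -/
def KM (A M : Subgroup Γ) : Subgroup Γ where
  carrier := {g | g ∈ normalizer (A : Set Γ) ∧ ∀ c ∈ A, g * c * g⁻¹ * c⁻¹ ∈ M}
  one_mem' := ⟨one_mem _, fun c _ => by simp⟩
  mul_mem' := by
    rintro g h ⟨hg, hg'⟩ ⟨hh, hh'⟩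
    refine ⟨mul_mem hg hh, fun c hc => ?_⟩
    have h1 := hg' _ (conj_mem hh hc)
    have h2 := mul_mem h1 (hh' c hc)
    have h3 : g * (h * c * h⁻¹) * g⁻¹ * (h * c * h⁻¹)⁻¹ * (h * c * h⁻¹ * c⁻¹) = g * h * c * (g * h)⁻¹ * c⁻¹ := by
      group
    rwa [h3] at h2
  inv_mem' := by
    rintro g ⟨hg, hg'⟩
    refine ⟨inv_mem hg, fun c hc => ?_⟩
    have h1 := hg' _ (conj_mem (inv_mem hg) hc)
    have h2 := inv_mem h1
    have h3 : (g * (g⁻¹ * c * g⁻¹⁻¹) * g⁻¹ * (g⁻¹ * c * g⁻¹⁻¹)⁻¹)⁻¹ = g⁻¹ * c * g⁻¹⁻¹ * c⁻¹ := by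
      group
    rwa [h3] at h2

theorem mem_KM {A M : Subgroup Γ} {g : Γ} :
    g ∈ KM A M ↔ g ∈ normalizer (A : Set Γ) ∧ ∀ c ∈ A, g * c * g⁻¹ * c⁻¹ ∈ M := Iff.rfl

/-- the elements of `A / M` fixed by `w` -/
def LM (A M : Subgroup Γ) (w : Γ) (hAc : ∀ x ∈ A, ∀ y ∈ A, x * y = y * x) (hMA : M ≤ A) : Subgroup Γ where
  carrier := {c | c ∈ A ∧ w * c * w⁻¹ * c⁻¹ ∈ M}
  one_mem' := ⟨one_mem _, by simp⟩
  mul_mem' := by
    rintro c d ⟨hc, hc'⟩ ⟨hd, hd'⟩
    refine ⟨mul_mem hc hd, ?_⟩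
    have h1 : w * (c * d) * w⁻¹ * (c * d)⁻¹ = (w * c * w⁻¹) * ((w * d * w⁻¹ * d⁻¹) * c⁻¹) := by group
    rw [h1, hAc _ (hMA hd') _ (inv_mem hc), ← mul_assoc]
    exact mul_mem hc' hd'
  inv_mem' := by
    rintro c ⟨hc, hc'⟩
    refine ⟨inv_mem hc, ?_⟩
    have h1 : w * c⁻¹ * w⁻¹ * c⁻¹⁻¹ = c⁻¹ * (w * c * w⁻¹ * c⁻¹)⁻¹ * c := by group
    rw [h1, hAc _ (inv_mem hc) _ (inv_mem (hMA hc')), inv_mul_cancel_right]
    exact inv_mem hc'

/-- a nontrivial power of an element of order `p * q` generates the `p`-th or the `q`-th power -/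
theorem pow_mem_zpowers {y w : Γ} {p q : ℕ} (hp : p.Prime) (hq : q.Prime) (hy : orderOf y = p * q)
    (hw : w ∈ zpowers y) (hw1 : w ≠ 1) : y ^ p ∈ zpowers w ∨ y ^ q ∈ zpowers w := by
  obtain ⟨k, rfl⟩ := mem_zpowers_iff.mp hw
  have hd : (Int.gcd k (p * q : ℕ)) ∣ p * q := Int.natCast_dvd_natCast.mp (Int.gcd_dvd_right _ _)
  have hdm : y ^ (Int.gcd k (p * q : ℕ)) ∈ zpowers (y ^ k) := by
    have h1 := Int.gcd_eq_gcd_ab k (p * q : ℕ)
    have h2 : y ^ ((Int.gcd k (p * q : ℕ) : ℕ) : ℤ) = (y ^ k) ^ (Int.gcdA k (p * q : ℕ)) := by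
      rw [h1, zpow_add, zpow_mul, zpow_mul, zpow_natCast, ← hy, pow_orderOf_eq_one, one_zpow, mul_one]
    rw [← zpow_natCast, h2]
    exact zpow_mem (mem_zpowers _) _
  obtain ⟨d1, d2, h1, h2, h3⟩ := (Nat.dvd_mul).mp hd
  rw [← h3] at hdm
  rcases (Nat.dvd_prime hp).mp h1 with h1 | h1 <;> rcases (Nat.dvd_prime hq).mp h2 with h2 | h2
  · left
    rw [h1, h2, one_mul, pow_one] at hdm
    exact pow_mem hdm _
  · right
    rw [h1, h2, one_mul] at hdm
    exact hdm
  · left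
    rw [h1, h2, mul_one] at hdm
    exact hdm
  · exfalso
    apply hw1
    rw [h1, h2] at h3
    have h4 : ((p * q : ℕ) : ℤ) ∣ k := by
      rw [h3]; exact Int.gcd_dvd_left _ _
    exact orderOf_dvd_iff_zpow_eq_one.mp (by rw [hy]; exact h4)

section Finite

variable [Finite Γ]

/-- the averaging argument -/
theorem eq_one_of_fixed {W A M Y : Subgroup Γ} {a : ℕ} (ha : a.Prime)
    (hWc : ∀ x ∈ W, ∀ y ∈ W, x * y = y * x) (hAW : A ≤ normalizer (W : Set Γ))
    (hYW : Y ≤ normalizer (W : Set Γ)) (hAc : ∀ x ∈ A, ∀ y ∈ A, x * y = y * x) (hMA : M ≤ A)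
    (hidx : M.relIndex A = a) (hYA : Y ≤ normalizer (A : Set Γ))
    (hWA : W ⊓ centralizer (A : Set Γ) = ⊥) (hWY : W ⊓ centralizer (Y : Set Γ) = ⊥) {v : Γ}
    (hv : v ∈ W) (hvM : v ∈ centralizer (M : Set Γ))
    (hvY : ∀ t ∈ Y, t ∈ normalizer (M : Set Γ) → Commute t v)
    (hcM : (Nat.card M).Coprime (Nat.card W)) (hcY : (Nat.card Y).Coprime (Nat.card W)) : v = 1 := by
  classical
  letI : CommGroup W := { (inferInstance : Group W) with
    mul_comm := fun x y => Subtype.ext (hWc x x.2 y y.2) }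
  have : Fintype M := Fintype.ofFinite M
  have : Fintype Y := Fintype.ofFinite Y
  let φ : M →* MulAut W := (Subgroup.normalizerMonoidHom W).comp (Subgroup.inclusion (hMA.trans hAW))
  let ψ : Y →* MulAut W := (Subgroup.normalizerMonoidHom W).comp (Subgroup.inclusion hYW)
  have hφ : ∀ (t : M) (w : W), ((φ t w : W) : Γ) = t * w * (t : Γ)⁻¹ := fun t w => rfl
  have hψ : ∀ (t : Y) (w : W), ((ψ t w : W) : Γ) = t * w * (t : Γ)⁻¹ := fun t w => rfl
  set v' : W := ⟨v, hv⟩ with hv'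
  -- the total product is trivial
  have hF : Lib.CoprimeAbelian.norm ψ v' = 1 := by
    apply Subtype.ext
    have h1 : ((Lib.CoprimeAbelian.norm ψ v' : W) : Γ) ∈ W ⊓ centralizer (Y : Set Γ) := by
      refine mem_inf.mpr ⟨Subtype.mem _, ?_⟩
      rw [mem_centralizer_iff]
      intro t ht
      have h2 := congrArg Subtype.val (Lib.CoprimeAbelian.norm_fixed ψ v' ⟨t, ht⟩)
      rw [hψ] at h2
      exact mul_inv_eq_iff_eq_mul.mp h2
    rw [hWY, mem_bot] at h1
    exact h1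
  -- the projections
  have hterm : ∀ t : Y, Lib.CoprimeAbelian.norm φ (ψ t v') =
      if (t : Γ) ∈ normalizer (M : Set Γ) then v' ^ Fintype.card M else 1 := by
    intro t
    split_ifs with ht
    · have h1 : ψ t v' = v' := by
        apply Subtype.ext
        rw [hψ]
        have h2 := hvY t t.2 ht
        show (t : Γ) * v * (t : Γ)⁻¹ = v
        rw [h2.eq, mul_inv_cancel_right]
      rw [h1]
      apply Lib.CoprimeAbelian.norm_of_fixed
      intro m
      apply Subtype.ext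
      rw [hφ]
      show (m : Γ) * v * (m : Γ)⁻¹ = v
      rw [mem_centralizer_iff.mp hvM m m.2, mul_inv_cancel_right]
    · -- the element lies in the centre of `M ⊔ M ^ t = A`
      set e : W := Lib.CoprimeAbelian.norm φ (ψ t v') with he
      have heM : M ≤ centralizer {(e : Γ)} := by
        intro m hm
        rw [mem_cent_iff]
        have h2 := congrArg Subtype.val (Lib.CoprimeAbelian.norm_fixed φ (ψ t v') ⟨m, hm⟩)
        rw [hφ] at h2
        exact (mul_inv_eq_iff_eq_mul.mp h2).symm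
      have heM' : M.map (MulAut.conj (t : Γ)).toMonoidHom ≤ centralizer {(e : Γ)} := by
        rintro _ ⟨m, hm, rfl⟩
        rw [mem_cent_iff]
        -- conjugation by `t m t⁻¹`
        have hs : (t : Γ) * m * (t : Γ)⁻¹ ∈ A := conj_mem (hYA t.2) (hMA hm)
        have hsW := hAW hs
        set s : Γ := (t : Γ) * m * (t : Γ)⁻¹ with hsdef
        have h3 : (MulAut.conj (t : Γ)).toMonoidHom m = s := rfl
        rw [h3]
        let σ : MulAut W := Subgroup.normalizerMonoidHom W ⟨s, hsW⟩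
        have hσ : ∀ w : W, ((σ w : W) : Γ) = s * w * s⁻¹ := fun w => rfl
        have h4 : σ e = e := by
          rw [he, Lib.CoprimeAbelian.norm_apply, map_prod]
          refine Finset.prod_congr rfl fun m' _ => ?_
          apply Subtype.ext
          rw [hσ, hφ, hψ]
          show s * ((m' : Γ) * ((t : Γ) * v * (t : Γ)⁻¹) * (m' : Γ)⁻¹) * s⁻¹ =
            (m' : Γ) * ((t : Γ) * v * (t : Γ)⁻¹) * (m' : Γ)⁻¹
          have h5 : s * (m' : Γ) = m' * s := hAc s hs m' (hMA m'.2)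
          have h6 : s * ((t : Γ) * v * (t : Γ)⁻¹) = ((t : Γ) * v * (t : Γ)⁻¹) * s := by
            rw [hsdef]
            have h7 : m * v = v * m := mem_centralizer_iff.mp hvM m hm
            calc (t : Γ) * m * (t : Γ)⁻¹ * ((t : Γ) * v * (t : Γ)⁻¹) = t * (m * v) * (t : Γ)⁻¹ := by group
              _ = t * (v * m) * (t : Γ)⁻¹ := by rw [h7]
              _ = _ := by group
          have h8 : Commute s ((m' : Γ) * ((t : Γ) * v * (t : Γ)⁻¹) * (m' : Γ)⁻¹) :=
            ((show Commute s (m' : Γ) from h5).mul_right h6).mul_right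
              ((show Commute s (m' : Γ) from h5).inv_right)
          rw [h8.eq, mul_inv_cancel_right]
        have h9 := congrArg Subtype.val h4
        rw [hσ] at h9
        exact (mul_inv_eq_iff_eq_mul.mp h9).symm
      have hM'A : M.map (MulAut.conj (t : Γ)).toMonoidHom ≤ A := by
        rintro _ ⟨m, hm, rfl⟩
        exact conj_mem (hYA t.2) (hMA hm)
      have hne : M ⊔ M.map (MulAut.conj (t : Γ)).toMonoidHom ≠ M := by
        intro h
        apply ht
        have h1 : M.map (MulAut.conj (t : Γ)).toMonoidHom ≤ M := sup_eq_left.mp h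
        have h2 : M.map (MulAut.conj (t : Γ)).toMonoidHom = M := by
          apply Subgroup.eq_of_le_of_card_ge h1
          rw [Nat.card_congr (M.equivMapOfInjective (MulAut.conj (t : Γ)).toMonoidHom (MulAut.conj (t : Γ)).injective).toEquiv]
        rw [mem_normalizer_iff]
        intro c
        constructor
        · intro hc
          rw [← h2]
          exact ⟨c, hc, rfl⟩
        · intro hc
          rw [← h2] at hc
          obtain ⟨c', hc', h3⟩ := hc
          have h4 : (t : Γ) * c' * (t : Γ)⁻¹ = t * c * (t : Γ)⁻¹ := h3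
          have h5 : c' = c := by simpa using h4
          rw [← h5]; exact hc'
      have htop : M ⊔ M.map (MulAut.conj (t : Γ)).toMonoidHom = A :=
        (eq_or_eq ha hidx le_sup_left (sup_le hMA hM'A)).resolve_left hne
      have h1 : A ≤ centralizer {(e : Γ)} := by
        rw [← htop]; exact sup_le heM heM'
      apply Subtype.ext
      have h2 : (e : Γ) ∈ W ⊓ centralizer (A : Set Γ) := by
        refine mem_inf.mpr ⟨e.2, ?_⟩
        rw [mem_centralizer_iff]
        intro c hc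
        exact (mem_cent_iff.mp (h1 hc)).symm
      rw [hWA, mem_bot] at h2
      exact h2
  have h1 : Lib.CoprimeAbelian.norm φ (Lib.CoprimeAbelian.norm ψ v') = 1 := by rw [hF, map_one]
  rw [Lib.CoprimeAbelian.norm_apply ψ, map_prod, Finset.prod_congr rfl (fun t _ => hterm t), Finset.prod_ite,
    Finset.prod_const, Finset.prod_const_one, mul_one] at h1
  have h2 : (Finset.univ.filter fun t : Y => (t : Γ) ∈ normalizer (M : Set Γ)).card =
      Nat.card ↥((normalizer (M : Set Γ)).subgroupOf Y) := by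
    rw [Nat.card_eq_fintype_card, Fintype.card_of_subtype]
    intro t
    rw [Finset.mem_filter, mem_subgroupOf]
    exact ⟨fun h => h.2, fun h => ⟨Finset.mem_univ _, h⟩⟩
  rw [h2] at h1
  have h3 := Lib.CoprimeAbelian.eq_one_of_pow_coprime
    (Nat.Coprime.coprime_dvd_left (Subgroup.card_subgroup_dvd_card _) hcY) _ h1
  have h4 := Lib.CoprimeAbelian.eq_one_of_pow_coprime (by rw [← Nat.card_eq_fintype_card]; exact hcM) _ h3
  exact congrArg Subtype.val h4

/-- a complement invariant under a cyclic `a'`-group -/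
theorem exists_compl {A M T : Subgroup Γ} {a : ℕ} (ha : a.Prime) (hAc : ∀ x ∈ A, ∀ y ∈ A, x * y = y * x)
    (hAe : ∀ x ∈ A, x ^ a = 1) (hMA : M ≤ A) (hidx : M.relIndex A = a) (hTA : T ≤ normalizer (A : Set Γ))
    (hTM : T ≤ normalizer (M : Set Γ)) (hcop : (Nat.card T).Coprime (Nat.card A)) :
    ∃ U : Subgroup Γ, U ≤ A ∧ T ≤ normalizer (U : Set Γ) ∧ M ⊓ U = ⊥ ∧ M ⊔ U = A := by
  have hne : ¬ A ≤ M := by
    intro h
    rw [relIndex_eq_one.mpr h] at hidx
    exact ha.one_lt.ne hidx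
  obtain ⟨y, hyA, hyM⟩ := Set.not_subset.mp hne
  have hyA : y ∈ A := hyA
  have hyM : y ∉ M := hyM
  have hfa : Fact a.Prime := ⟨ha⟩
  have hy1 : y ≠ 1 := fun h => hyM (h ▸ one_mem M)
  have hya : orderOf y = a := orderOf_eq_prime (hAe y hyA) hy1
  have hzA : zpowers y ≤ A := zpowers_le.mpr hyA
  refine Cfsg.Agent.S0660.result A T M ⟨⟨fun x y => Subtype.ext (hAc x x.2 y y.2)⟩⟩ hTA hcop hMA hTM
    (zpowers y) hzA ?_ ?_
  · rw [eq_bot_iff]
    rintro w ⟨hwM, hwy⟩
    by_contra hw1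
    rw [mem_bot] at hw1
    have hwa : orderOf w = a := orderOf_eq_prime (hAe w (hMA hwM)) hw1
    exact hyM ((zpowers_le.mpr hwM) (zpowers_eq_of_mem hya hwa hwy))
  · refine (eq_or_eq ha hidx le_sup_left (sup_le hMA hzA)).resolve_left ?_
    intro h
    exact hyM ((sup_eq_left.mp h) (mem_zpowers y))

theorem claim {W A M : Subgroup Γ} {a b p q : ℕ} (ha : a.Prime) (hb : b.Prime) (hab : a ≠ b) (hp : p.Prime)
    (hq : q.Prime) (hap : a ≠ p) (haq : a ≠ q) (hbp : b ≠ p) (hbq : b ≠ q) (hW : IsPGroup b W)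
    (hWc : ∀ x ∈ W, ∀ y ∈ W, x * y = y * x) (hA : IsPGroup a A)
    (hAc : ∀ x ∈ A, ∀ y ∈ A, x * y = y * x) (hAe : ∀ x ∈ A, x ^ a = 1)
    (hAW : A ≤ normalizer (W : Set Γ)) (hWA : W ⊓ centralizer (A : Set Γ) = ⊥) (hMA : M ≤ A)
    (hidx : M.relIndex A = a) (hWM : W ⊓ centralizer (M : Set Γ) ≠ ⊥) {y : Γ}
    (hyW : y ∈ normalizer (W : Set Γ)) (hyA : y ∈ normalizer (A : Set Γ)) (hy : orderOf y = p * q)
    (hyf : W ⊓ centralizer {y} = ⊥) : y ^ p ∈ KM A M ∨ y ^ q ∈ KM A M := by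
  by_contra hcon
  rw [not_or] at hcon
  obtain ⟨h1, h2⟩ := hcon
  -- the coprimeness
  have hcb : (Nat.card W).Coprime (p * q) := by
    apply coprime_pow_card hb hW
    rw [hb.dvd_mul, not_or]
    exact ⟨fun h => hbp ((Nat.prime_dvd_prime_iff_eq hb hp).mp h),
      fun h => hbq ((Nat.prime_dvd_prime_iff_eq hb hq).mp h)⟩
  have hca : (Nat.card A).Coprime (p * q) := by
    apply coprime_pow_card ha hA
    rw [ha.dvd_mul, not_or]
    exact ⟨fun h => hap ((Nat.prime_dvd_prime_iff_eq ha hp).mp h),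
      fun h => haq ((Nat.prime_dvd_prime_iff_eq ha hq).mp h)⟩
  have hYW : zpowers y ≤ normalizer (W : Set Γ) := zpowers_le.mpr hyW
  have hYA : zpowers y ≤ normalizer (A : Set Γ) := zpowers_le.mpr hyA
  have hfaith : ∀ w ∈ zpowers y, w ≠ 1 → w ∉ KM A M := by
    intro w hw hw1 hwK
    rcases pow_mem_zpowers hp hq hy hw hw1 with h | h
    · exact h1 ((zpowers_le.mpr hwK) h)
    · exact h2 ((zpowers_le.mpr hwK) h)
  -- a generator of the stabiliser of `M`
  obtain ⟨z, hz⟩ : ∃ z : Γ, zpowers z = zpowers y ⊓ normalizer (M : Set Γ) := by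
    rw [← Subgroup.isCyclic_iff_exists_zpowers_eq_top]
    exact isCyclic_of_injective (Subgroup.inclusion (inf_le_left : zpowers y ⊓ normalizer (M : Set Γ) ≤ zpowers y))
      (Subgroup.inclusion_injective _)
  have hzm : z ∈ zpowers y ⊓ normalizer (M : Set Γ) := by rw [← hz]; exact mem_zpowers z
  obtain ⟨hzy, hzM⟩ := mem_inf.mp hzm
  have hzW := hYW hzy
  have hzA := hYA hzy
  have hzd : orderOf z ∣ p * q := by
    rw [← hy]
    exact orderOf_dvd_of_mem_zpowers hzy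
  -- a fixed point of `z`
  obtain ⟨v, hvW, hvM, hv1, hzv⟩ : ∃ v, v ∈ W ∧ v ∈ centralizer (M : Set Γ) ∧ v ≠ 1 ∧ Commute z v := by
    by_cases hz1 : z = 1
    · obtain ⟨⟨v, hv⟩, hv1⟩ := Subgroup.ne_bot_iff_exists_ne_one.mp hWM
      obtain ⟨hvW, hvM⟩ := mem_inf.mp hv
      refine ⟨v, hvW, hvM, fun h => hv1 (Subtype.ext h), ?_⟩
      rw [hz1]
      exact Commute.one_left v
    by_contra hno
    have hfix : (W ⊓ centralizer (M : Set Γ)) ⊓ centralizer {z} = ⊥ := by
      rw [eq_bot_iff]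
      rintro v ⟨⟨hvW, hvM⟩, hvz⟩
      rw [mem_bot]
      by_contra hv1
      exact hno ⟨v, hvW, hvM, hv1, mem_cent_iff.mp hvz⟩
    have hzz : zpowers z ≤ normalizer (A : Set Γ) := zpowers_le.mpr hzA
    obtain ⟨U, hUA, hTU, hMU, hMUA⟩ := exists_compl ha hAc hAe hMA hidx hzz (zpowers_le.mpr hzM) (by
      rw [Nat.card_zpowers]
      exact (Nat.Coprime.coprime_dvd_right hzd hca).symm)
    have hU1 : U ≠ ⊥ := by
      rintro rfl
      rw [sup_bot_eq] at hMUA
      rw [hMUA, relIndex_self] at hidx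
      exact ha.one_lt.ne hidx
    have hAWM : A ≤ normalizer ((W ⊓ centralizer (M : Set Γ) : Subgroup Γ) : Set Γ) := by
      have : ∀ c ∈ A, ∀ w ∈ W ⊓ centralizer (M : Set Γ), c * w * c⁻¹ ∈ W ⊓ centralizer (M : Set Γ) := by
        rintro c hc w ⟨hwW, hwM⟩
        refine mem_inf.mpr ⟨conj_mem (hAW hc) hwW, ?_⟩
        rw [mem_centralizer_iff]
        intro m hm
        have h3 : Commute m c := hAc m (hMA hm) c hc
        have h4 : Commute m w := mem_centralizer_iff.mp hwM m hm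
        exact ((h3.mul_right h4).mul_right h3.inv_right).eq
      intro c hc
      rw [mem_normalizer_iff]
      intro w
      refine ⟨this c hc w, fun h => ?_⟩
      have h3 := this _ (inv_mem hc) _ h
      have h4 : c⁻¹ * (c * w * c⁻¹) * c⁻¹⁻¹ = w := by group
      rwa [h4] at h3
    have hzWM : z ∈ normalizer ((W ⊓ centralizer (M : Set Γ) : Subgroup Γ) : Set Γ) := by
      have : ∀ c ∈ normalizer (W : Set Γ) ⊓ normalizer (M : Set Γ), ∀ w ∈ W ⊓ centralizer (M : Set Γ),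
          c * w * c⁻¹ ∈ W ⊓ centralizer (M : Set Γ) := by
        rintro c ⟨hcW, hcM⟩ w ⟨hwW, hwM⟩
        refine mem_inf.mpr ⟨conj_mem hcW hwW, ?_⟩
        rw [mem_centralizer_iff]
        intro m hm
        have h3 : c⁻¹ * m * c⁻¹⁻¹ ∈ M := conj_mem (inv_mem hcM) hm
        have h4 : (c⁻¹ * m * c⁻¹⁻¹) * w = w * (c⁻¹ * m * c⁻¹⁻¹) := mem_centralizer_iff.mp hwM _ h3
        calc m * (c * w * c⁻¹) = c * ((c⁻¹ * m * c⁻¹⁻¹) * w) * c⁻¹ := by group
          _ = c * (w * (c⁻¹ * m * c⁻¹⁻¹)) * c⁻¹ := by rw [h4]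
          _ = _ := by group
      have hzm' : z ∈ normalizer (W : Set Γ) ⊓ normalizer (M : Set Γ) := mem_inf.mpr ⟨hzW, hzM⟩
      rw [mem_normalizer_iff]
      intro w
      refine ⟨this z hzm' w, fun h => ?_⟩
      have h3 := this _ (inv_mem hzm') _ h
      have h4 : z⁻¹ * (z * w * z⁻¹) * z⁻¹⁻¹ = w := by group
      rwa [h4] at h3
    have hfrob := frob ha hb hab (U := U) (V := W ⊓ centralizer (M : Set Γ)) (y := z)
      (hA.to_le hUA) (hW.to_le inf_le_left) hU1 hz1 (by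
        intro h
        have h3 : b ∣ Nat.gcd (Nat.card W) (p * q) := Nat.dvd_gcd ?_ (h.trans hzd)
        · rw [hcb] at h3
          exact hb.one_lt.ne' (Nat.dvd_one.mp h3)
        · have hWne : W ≠ ⊥ := by
            rintro rfl
            exact hWM (bot_inf_eq _)
          have hfb : Fact b.Prime := ⟨hb⟩
          obtain ⟨n, hn⟩ := IsPGroup.iff_card.mp hW
          have hn0 : n ≠ 0 := by
            rintro rfl
            rw [pow_zero] at hn
            exact hWne (Subgroup.card_eq_one.mp hn)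
          rw [hn]
          exact dvd_pow_self b hn0)
      (hTU (mem_zpowers z)) hzWM (hUA.trans hAWM) (by
        intro w hw hw1
        have hwy : w ∈ zpowers y ⊓ normalizer (M : Set Γ) := by rw [← hz]; exact hw
        rw [eq_bot_iff]
        rintro u ⟨huU, huw⟩
        rw [mem_bot]
        by_contra hu1
        apply hfaith w (mem_inf.mp hwy).1 hw1
        refine mem_KM.mpr ⟨hYA (mem_inf.mp hwy).1, ?_⟩
        have huM : u ∉ M := by
          intro h
          have h3 : u ∈ M ⊓ U := mem_inf.mpr ⟨h, huU⟩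
          rw [hMU, mem_bot] at h3
          exact hu1 h3
        have hwu : Commute w u := mem_cent_iff.mp huw
        have huL : u ∈ LM A M w hAc hMA := by
          refine ⟨hUA huU, ?_⟩
          rw [hwu.eq, mul_inv_cancel_right, mul_inv_cancel]
          exact one_mem M
        have hML : M ≤ LM A M w hAc hMA := fun m hm =>
          ⟨hMA hm, mul_mem (conj_mem (mem_inf.mp hwy).2 hm) (inv_mem hm)⟩
        have hL : LM A M w hAc hMA = A :=
          (eq_or_eq ha hidx hML (fun c hc => hc.1)).resolve_left (fun h => huM (h ▸ huL))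
        intro c hc
        have hcL : c ∈ LM A M w hAc hMA := by rw [hL]; exact hc
        exact hcL.2)
      hfix
    apply hWM
    rw [eq_bot_iff, ← hWA]
    rintro w ⟨hwW, hwM⟩
    refine mem_inf.mpr ⟨hwW, ?_⟩
    rw [le_centralizer_iff] at hfrob
    have h3 : A ≤ centralizer {w} := by
      rw [← hMUA]
      apply sup_le
      · intro m hm
        rw [mem_cent_iff]
        exact (mem_centralizer_iff.mp hwM m hm).symm
      · intro u hu
        rw [mem_cent_iff]
        exact (mem_centralizer_iff.mp (hfrob (mem_inf.mpr ⟨hwW, hwM⟩)) u hu).symm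
    rw [mem_centralizer_iff]
    intro c hc
    exact (mem_cent_iff.mp (h3 hc)).symm
  apply hv1
  refine eq_one_of_fixed ha hWc hAW hYW hAc hMA hidx hYA hWA ?_ hvW hvM ?_ ?_ ?_
  · rw [Cfsg.Agent.SignalizersComponents.LocalGlobal.centralizer_zpowers_eq]; exact hyf
  · intro t ht htM
    have h3 : t ∈ zpowers z := by rw [hz]; exact mem_inf.mpr ⟨ht, htM⟩
    obtain ⟨k, rfl⟩ := mem_zpowers_iff.mp h3
    exact hzv.zpow_left k
  · have h3 := not_dvd_card ha hb (Ne.symm hab) (hA.to_le hMA)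
    exact (coprime_pow_card hb hW h3).symm
  · rw [Nat.card_zpowers, hy]
    exact hcb.symm

end Finite

end H488LemX

open H488LemX
open Cfsg.Agent.H381.Tools (mem_cent_iff not_dvd_card coprime_pow_card)

theorem lemX_core {Γ : Type u} [Group Γ] [Finite Γ] {V A P : Subgroup Γ} {a b p q : ℕ} (ha : a.Prime) (hb : b.Prime)
    (hab : a ≠ b) (hp : p.Prime) (hq : q.Prime) (hpq : p ≠ q) (hap : a ≠ p) (haq : a ≠ q) (hbp : b ≠ p) (hbq : b ≠ q)
    (hV : IsPGroup b V) (hVc : ∀ x ∈ V, ∀ y ∈ V, x * y = y * x) (hA : IsPGroup a A)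
    (hAc : ∀ x ∈ A, ∀ y ∈ A, x * y = y * x) (hAe : ∀ x ∈ A, x ^ a = 1) (hA1 : A ≠ ⊥)
    (hAV : A ≤ normalizer (V : Set Γ)) (hfaith : A ⊓ centralizer (V : Set Γ) = ⊥)
    (hPV : P ≤ normalizer (V : Set Γ)) (hPA : P ≤ normalizer (A : Set Γ)) {x : Γ} (hxP : x ∈ P)
    (hx : orderOf x = p * q) (hxV : V ⊓ centralizer {x} = ⊥) (hxA : A ⊓ centralizer {x} = ⊥)
    (hP : ∀ C ≤ P, (∀ g ∈ P, g * x ^ p * g⁻¹ ∈ C ∨ g * x ^ q * g⁻¹ ∈ C) → C = P) : False := by
  have hfa : Fact a.Prime := ⟨ha⟩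
  have hcVA : (Nat.card A).Coprime (Nat.card V) := by
    have h1 := not_dvd_card ha hb (Ne.symm hab) hA
    exact (coprime_pow_card hb hV h1).symm
  -- `W = [V, A]`
  set W : Subgroup Γ := ⁅V, A⁆ with hWdef
  have hWV : W ≤ V := by
    rw [hWdef, commutator_le]
    intro v hv c hc
    rw [commutatorElement_def, mul_assoc, mul_assoc]
    apply V.mul_mem hv
    have h1 := conj_mem (hAV hc) (V.inv_mem hv)
    rwa [mul_assoc] at h1
  have hWA : W ⊓ centralizer (A : Set Γ) = ⊥ := by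
    have h1 := Lib.CoprimeAbelian.inf_commutator_eq_bot A V hVc hAV hcVA
    rw [eq_bot_iff, ← h1]
    rintro w ⟨hw, hwA⟩
    exact mem_inf.mpr ⟨mem_inf.mpr ⟨hWV hw, hwA⟩, hw⟩
  have hW1 : W ≠ ⊥ := by
    intro h
    have h1 : V ≤ centralizer (A : Set Γ) := commutator_eq_bot_iff_le_centralizer.mp h
    rw [le_centralizer_iff] at h1
    exact hA1 (by rw [← hfaith]; exact (inf_eq_left.mpr h1).symm)
  have hnW : ∀ g ∈ normalizer (V : Set Γ), g ∈ normalizer (A : Set Γ) → g ∈ normalizer (W : Set Γ) := by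
    have key : ∀ g ∈ normalizer (V : Set Γ), g ∈ normalizer (A : Set Γ) → ∀ w ∈ W, g * w * g⁻¹ ∈ W := by
      intro g hgV hgA w hw
      have h1 : W ≤ W.comap (MulAut.conj g).toMonoidHom := by
        rw [hWdef, commutator_le]
        intro v hv c hc
        rw [mem_comap, map_commutatorElement]
        exact commutator_mem_commutator (conj_mem hgV hv) (conj_mem hgA hc)
      exact h1 hw
    intro g hgV hgA
    rw [mem_normalizer_iff]
    intro w
    refine ⟨key g hgV hgA w, fun h => ?_⟩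
    have h3 := key _ (inv_mem hgV) (inv_mem hgA) _ h
    have h4 : g⁻¹ * (g * w * g⁻¹) * g⁻¹⁻¹ = w := by group
    rwa [h4] at h3
  have hAA : A ≤ normalizer (A : Set Γ) := le_normalizer
  have hAW : A ≤ normalizer (W : Set Γ) := fun c hc => hnW c (hAV hc) (hAA hc)
  have hWp : IsPGroup b W := hV.to_le hWV
  have hWc : ∀ x ∈ W, ∀ y ∈ W, x * y = y * x := fun x hx y hy => hVc x (hWV hx) y (hWV hy)
  -- a hyperplane
  obtain ⟨M, hMA, hidx, hWM⟩ : ∃ M : Subgroup Γ, M ≤ A ∧ M.relIndex A = a ∧ W ⊓ centralizer (M : Set Γ) ≠ ⊥ := by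
    by_contra hno
    push Not at hno
    have h1 := Cfsg.Agent.Lib.CoprimeHyperplane.iSup_centralizer_hyperplane (p := a) (A := A) (Q := W)
      ⟨⟨⟨fun x y => Subtype.ext (hAc x x.2 y y.2)⟩⟩, hAe⟩ hA1 (not_dvd_card hb ha hab hWp) hAW
    apply hW1
    rw [← h1, iSup_eq_bot]
    rintro ⟨B, hB, hB'⟩
    exact hno B hB hB'
  -- all of `P` centralises `A / M`
  have hKP : P ⊓ KM A M = P := by
    apply hP _ inf_le_left
    intro g hg
    have hgx : g * x * g⁻¹ ∈ P := mul_mem (mul_mem hg hxP) (inv_mem hg)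
    have hcl := claim ha hb hab hp hq hap haq hbp hbq hWp hWc hA hAc hAe hAW hWA hMA hidx hWM (y := g * x * g⁻¹)
      (hnW _ (hPV hgx) (hPA hgx)) (hPA hgx) (by rw [← hx]; exact (MulAut.conj g).orderOf_eq x) (by
        rw [eq_bot_iff]
        rintro w ⟨hw, hwx⟩
        rw [mem_bot]
        have h1 : g⁻¹ * w * g⁻¹⁻¹ ∈ V ⊓ centralizer {x} := by
          refine mem_inf.mpr ⟨conj_mem (inv_mem (hPV hg)) (hWV hw), ?_⟩
          rw [mem_cent_iff]
          have h2 : Commute (g * x * g⁻¹) w := mem_cent_iff.mp hwx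
          have h3 : x * (g⁻¹ * w * g⁻¹⁻¹) = g⁻¹ * (g * x * g⁻¹ * w) * g⁻¹⁻¹ := by group
          show x * (g⁻¹ * w * g⁻¹⁻¹) = (g⁻¹ * w * g⁻¹⁻¹) * x
          rw [h3, h2.eq]
          group
        rw [hxV, mem_bot] at h1
        have h2 : w = g * (g⁻¹ * w * g⁻¹⁻¹) * g⁻¹ := by group
        rw [h2, h1, mul_one, mul_inv_cancel])
    rw [conj_pow, conj_pow] at hcl
    have hpow : ∀ n : ℕ, g * x ^ n * g⁻¹ ∈ P := fun n => mul_mem (mul_mem hg (pow_mem hxP n)) (inv_mem hg)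
    exact hcl.imp (fun h => mem_inf.mpr ⟨hpow p, h⟩) (fun h => mem_inf.mpr ⟨hpow q, h⟩)
  have hxK : x ∈ KM A M := by
    have h1 : x ∈ P ⊓ KM A M := by rw [hKP]; exact hxP
    exact (mem_inf.mp h1).2
  -- `c ↦ x c x⁻¹ c⁻¹` is injective from `A` to `M`
  obtain ⟨-, hxK⟩ := mem_KM.mp hxK
  have hle : Nat.card A ≤ Nat.card M := by
    apply Nat.card_le_card_of_injective (fun c : A => (⟨x * c * x⁻¹ * (c : Γ)⁻¹, hxK c c.2⟩ : M))
    intro c d h
    have h1 : x * (c : Γ) * x⁻¹ * (c : Γ)⁻¹ = x * (d : Γ) * x⁻¹ * (d : Γ)⁻¹ := congrArg Subtype.val h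
    have hcx : x * (c : Γ) * x⁻¹ ∈ A := conj_mem (hPA hxP) c.2
    have hdx : x * (d : Γ) * x⁻¹ ∈ A := conj_mem (hPA hxP) d.2
    have h2 : (d : Γ)⁻¹ * c ∈ A ⊓ centralizer {x} := by
      refine mem_inf.mpr ⟨mul_mem (inv_mem d.2) c.2, ?_⟩
      rw [mem_cent_iff]
      show x * ((d : Γ)⁻¹ * c) = ((d : Γ)⁻¹ * c) * x
      have h3 : x * ((d : Γ)⁻¹ * c) * x⁻¹ = (x * (d : Γ) * x⁻¹)⁻¹ * (x * (c : Γ) * x⁻¹) := by group
      have h4 : x * (c : Γ) * x⁻¹ = x * (d : Γ) * x⁻¹ * ((d : Γ)⁻¹ * c) := by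
        rw [← mul_assoc, ← h1, inv_mul_cancel_right]
      have h5 : x * ((d : Γ)⁻¹ * c) * x⁻¹ = (d : Γ)⁻¹ * c := by
        rw [h3, h4, inv_mul_cancel_left]
      exact mul_inv_eq_iff_eq_mul.mp h5
    rw [hxA, mem_bot] at h2
    apply Subtype.ext
    exact (inv_mul_eq_one.mp h2).symm
  have hMeq : M = A := Subgroup.eq_of_le_of_card_ge hMA hle
  rw [hMeq, relIndex_self] at hidx
  exact ha.one_lt.ne hidx

end Cfsg.Agent.H389.RSq
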